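import Cfsg.Agent.Lib.Helper26.FusConstr
import Cfsg.Agent.Lib.Helper26.FusGroupFactor

set_option autoImplicit false

/-! Constrained fusion systems of groups: subnormal subgroups and central quotients. -/

namespace Cfsg.Agent.Lib.Helper26

open Cfsg Cfsg.FusionSystem

variable {G : Type*} [Group G] {p : ℕ} {A H K T T' : Subgroup G}

theorem constrained_sub_congr {h : T ≤ H} {h' : T' ≤ H} (e : T = T')
    (hc : (fusionSystemOfSubgroup H T h).IsConstrained p) : (fusionSystemOfSubgroup H T' h').IsConstrained p := by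
  subst e
  exact hc

theorem constrained_sub_step [Fact p.Prime] [Finite K] (hA : IsSylowIn p A K)
    (hc : (fusionSystemOfSubgroup K A hA.le).IsConstrained p) (hHK : H ≤ K)
    (hn : K ≤ Subgroup.normalizer (H : Set G)) :
    (fusionSystemOfSubgroup H (A ⊓ H) inf_le_right).IsConstrained p := by
  have hfA : Finite A := finite_of_le hA.le
  have hfH : Finite H := finite_of_le hHK
  have hsyl : IsSylowIn p (A ⊓ H) H := hA.inf_normal hHK hn
  refine isConstrained_of_sub hA.isPGroup hc ?_ (isSaturated_sub hsyl) ?_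
  · rw [stronglyClosed_iff]
    refine ⟨inf_le_left, fun R hR f hf x hx => ?_⟩
    obtain ⟨-, k, hk, h⟩ := map_sub_iff.1 hf
    rw [(h x hx).1]
    exact ⟨(h x hx).2, conj_mem_of_normalizer (hn hk) (hR hx).2⟩
  · intro P f hf
    obtain ⟨h1, k, hk, h⟩ := map_sub_iff.1 hf
    exact map_sub_iff.2 ⟨h1.trans inf_le_left, k, hHK hk, fun x hx => ⟨(h x hx).1, (h x hx).2.1⟩⟩

theorem constrained_subnormal [Fact p.Prime] [Finite G] (S : Sylow p G)
    (hF : (groupFusionSystem (S : Subgroup G)).IsConstrained p) (hH : H.IsSubnormal) :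
    IsSylowIn p ((S : Subgroup G) ⊓ H) H ∧
      (fusionSystemOfSubgroup H ((S : Subgroup G) ⊓ H) inf_le_right).IsConstrained p := by
  induction hH with
  | top =>
    refine ⟨?_, ?_⟩
    · rw [inf_top_eq]; exact Sylow.isSylowIn_top S
    · rw [groupFusionSystem_eq] at hF
      exact constrained_sub_congr (inf_top_eq _).symm hF
  | step H K hHK _ hN ih =>
    obtain ⟨ih1, ih2⟩ := ih
    have hn : K ≤ Subgroup.normalizer (H : Set G) :=
      (Subgroup.normal_subgroupOf_iff_le_normalizer hHK).1 hN
    have e : (S : Subgroup G) ⊓ K ⊓ H = (S : Subgroup G) ⊓ H := by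
      rw [inf_assoc, inf_eq_right.2 hHK]
    refine ⟨?_, ?_⟩
    · have := ih1.inf_normal hHK hn
      rwa [e] at this
    · exact constrained_sub_congr e (constrained_sub_step ih1 ih2 hHK hn)

theorem coe_tv_inclusion (h : T ≤ H) {x : G} (hx : x ∈ T) : ((tv (Subgroup.inclusion h) x : H) : G) = x := by
  rw [tv_mem _ hx]
  rfl

theorem facData_inclusion (h : T ≤ H) : FacData (Subgroup.inclusion h) ⊥ (T.subgroupOf H) := by
  refine ⟨bot_le, fun s => ?_, ?_⟩
  · rw [Subgroup.mem_bot]
    constructor
    · intro hs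
      have := congrArg (Subtype.val) hs
      simpa using this
    · intro hs
      apply Subtype.ext
      simpa using hs
  · exact Subgroup.inclusion_range h

theorem facC_inclusion (h : T ≤ H) : ∀ P' f', Map (groupFusionSystem (T.subgroupOf H)) P' f' ↔
    FacC (fusionSystemOfSubgroup H T h) (Subgroup.inclusion h) (T.subgroupOf H) P' f' := by
  have d := facData_inclusion h
  intro P' f'
  rw [map_group_iff]
  constructor
  · rintro ⟨hP', g, hg⟩
    refine ⟨hP', cj (g : G), map_sub_iff.2 ⟨preimageAlong_le, g, g.2, fun x hx => ⟨rfl, ?_⟩⟩, fun x hx => ?_⟩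
    · obtain ⟨hxT, hx2⟩ := mem_preimageAlong.1 hx
      have := (hg _ hx2).2
      rw [Subgroup.mem_subgroupOf] at this
      simpa [coe_tv_inclusion h hxT] using this
    · obtain ⟨hxT, hx2⟩ := mem_preimageAlong.1 hx
      have h1 := (hg _ hx2).2
      rw [Subgroup.mem_subgroupOf] at h1
      have h2 : (g : G) * x * (g : G)⁻¹ ∈ T := by simpa [coe_tv_inclusion h hxT] using h1
      rw [(hg _ hx2).1]
      apply Subtype.ext
      simp only [cj]
      rw [coe_tv_inclusion h h2]
      simp [coe_tv_inclusion h hxT]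
  · rintro ⟨hP', f, hf, hI⟩
    obtain ⟨-, g, hgH, hg⟩ := map_sub_iff.1 hf
    refine ⟨hP', ⟨g, hgH⟩, fun y hy => ?_⟩
    obtain ⟨x, hx, rfl⟩ := d.exists_pre hP' hy
    have hxT := preimageAlong_le hx
    have e : f' (tv (Subgroup.inclusion h) x) =
        ⟨g, hgH⟩ * tv (Subgroup.inclusion h) x * (⟨g, hgH⟩ : H)⁻¹ := by
      rw [hI x hx]
      apply Subtype.ext
      rw [coe_tv_inclusion h (hf.mem_S hx), (hg x hx).1]
      simp [coe_tv_inclusion h hxT]
    refine ⟨e, ?_⟩
    rw [← e, hI x hx]
    exact d.tv_mem_S' (hf.mem_S hx)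

theorem constrained_conv [Fact p.Prime] [Finite T] (hT : IsPGroup p T) (h : T ≤ H)
    (hc : (fusionSystemOfSubgroup H T h).IsConstrained p) :
    (groupFusionSystem (T.subgroupOf H)).IsConstrained p :=
  isConstrained_factor_central hT hc isCentral_bot (facData_inclusion h) (facC_inclusion h)

/-- S5115 for any prime -/
theorem constrained_subnormal' [Fact p.Prime] [Finite G] (S : Sylow p G)
    (hF : (groupFusionSystem (S : Subgroup G)).IsConstrained p) (hH : H.IsSubnormal) :
    (groupFusionSystem ((S : Subgroup G).subgroupOf H)).IsConstrained p := by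
  obtain ⟨h1, h2⟩ := constrained_subnormal S hF hH
  have := constrained_conv h1.isPGroup inf_le_right h2
  rwa [Subgroup.inf_subgroupOf_right] at this

theorem isCentral_inf_center (S : Subgroup G) : (groupFusionSystem S).IsCentral (S ⊓ Subgroup.center G) := by
  rw [isCentral_iff]
  refine ⟨inf_le_left, fun P f hf => ?_⟩
  obtain ⟨hP, g, hg⟩ := map_group_iff.1 hf
  have hz : ∀ x ∈ S ⊓ Subgroup.center G, g * x * g⁻¹ = x := by
    intro x hx
    have := Subgroup.mem_center_iff.1 hx.2 g
    rw [this]
    group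
  refine ⟨cj g, map_group_iff.2 ⟨sup_le hP inf_le_left, g, fun x hx => ⟨rfl, ?_⟩⟩,
    fun x hx => (hg x hx).1.symm, hz⟩
  have hle : cjs g (P ⊔ S ⊓ Subgroup.center G) ≤ S := by
    rw [cjs_sup]
    refine sup_le (cjs_le_iff.2 fun y hy => (hg y hy).2) (cjs_le_iff.2 fun y hy => ?_)
    rw [hz y hy]
    exact hy.1
  exact hle (conj_mem_cjs hx)

theorem constrained_center_quotient [Fact p.Prime] [Finite G] (S : Sylow p G)
    (hF : (groupFusionSystem (S : Subgroup G)).IsConstrained p) :
    (groupFusionSystem ((S : Subgroup G).map (QuotientGroup.mk' (Subgroup.center G)))).IsConstrained p := by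
  obtain ⟨d, hD⟩ := isFactorSystem_iff.1 (group_factor S (Subgroup.center G))
  exact isConstrained_factor_central S.2 hF (isCentral_inf_center _) d hD

end Cfsg.Agent.Lib.Helper26
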