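import Cfsg.Agent.Lib.Helper26.FusExtM

set_option autoImplicit false

/-! The hyperfocal subgroup acts on a strongly closed subgroup `T` through `O^p(Aut_F(T)) Inn(T)`. -/

namespace Cfsg.Agent.Lib.Helper26

open Cfsg Cfsg.FusionSystem

variable {Ω : Type*} [Group Ω] {S : Subgroup Ω}
variable {P Q R N K U V T : Subgroup Ω} {f g : Ω → Ω} {F : FusionSystem S} {p : ℕ}

theorem exists_res_pRes [Finite S] (hT : F.StronglyClosed T) (hTN : T ≤ N) (hNS : N ≤ S) :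
    ∀ γ ∈ pResidual p (F.autGroup N), ∃ δ : F.autGroup T, δ ∈ pResidual p (F.autGroup T) ∧
      ∀ t ∈ T, aev δ.1 t = aev γ.1 t := by
  refine pRes_induction ?_ ?_ ?_
  · exact ⟨1, Subgroup.one_mem _, fun t ht => by
      rw [show ((1 : F.autGroup T) : MulAut T) = 1 from rfl, show ((1 : F.autGroup N) : MulAut N) = 1 from rfl,
        aev_one ht, aev_one (hTN ht)]⟩
  · rintro γ₁ γ₂ ⟨δ₁, h1, h1'⟩ ⟨δ₂, h2, h2'⟩
    refine ⟨δ₁ * δ₂, Subgroup.mul_mem _ h1 h2, fun t ht => ?_⟩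
    rw [show ((δ₁ * δ₂ : F.autGroup T) : MulAut T) = δ₁.1 * δ₂.1 from rfl,
      show ((γ₁ * γ₂ : F.autGroup N) : MulAut N) = γ₁.1 * γ₂.1 from rfl,
      aev_mul _ _ ht, aev_mul _ _ (hTN ht), h2' t ht, ← h2' t ht, h1' _ (aev_mem_self _ ht)]
  · intro γ hγ
    have hm := ((mem_autGroup_iff hNS).1 γ.2)
    obtain ⟨δ, hδ, h⟩ := (hm.restrict hTN).exists_aut (StronglyClosed.im_eq hT hm hTN)
    have hord : orderOf δ ∣ orderOf γ.1 := by
      apply orderOf_dvd_of_pow_eq_one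
      apply aut_ext
      intro t ht
      rw [← aev_pow_restrict hTN (fun x hx => (h x hx).symm) _ t ht, pow_orderOf_eq_one, aev_one ht,
        aev_one (hTN ht)]
    refine ⟨⟨δ, hδ⟩, mem_pRes_of_coprime ?_, h⟩
    rw [← Subgroup.orderOf_coe]
    refine Nat.Coprime.coprime_dvd_left hord ?_
    rw [Subgroup.orderOf_coe]
    exact hγ

/-- elements of `S` inducing on `T` an automorphism from `B` -/
def autK (S T : Subgroup Ω) (hn : S ≤ Subgroup.normalizer (T : Set Ω)) (B : Subgroup (MulAut T)) : Subgroup Ω where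
  carrier := {x | x ∈ S ∧ ∃ α ∈ B, ∀ t ∈ T, aev α t = x * t * x⁻¹}
  one_mem' := ⟨S.one_mem, 1, B.one_mem, fun t ht => by rw [aev_one ht]; group⟩
  mul_mem' := by
    rintro x y ⟨hx, α, hα, h1⟩ ⟨hy, β, hβ, h2⟩
    refine ⟨S.mul_mem hx hy, α * β, B.mul_mem hα hβ, fun t ht => ?_⟩
    rw [aev_mul _ _ ht, h2 t ht, h1 _ (conj_mem_of_normalizer (hn hy) ht)]
    group
  inv_mem' := by
    rintro x ⟨hx, α, hα, h1⟩
    refine ⟨S.inv_mem hx, α⁻¹, B.inv_mem hα, fun t ht => ?_⟩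
    have h2 : x⁻¹ * t * x ∈ T := conj_inv_mem_of_normalizer (hn hx) ht
    have h3 := h1 _ h2
    have e : x * (x⁻¹ * t * x) * x⁻¹ = t := by group
    rw [e] at h3
    have h4 : aev α⁻¹ t = x⁻¹ * t * x := by
      conv_lhs => rw [← h3]
      exact aev_inv_apply α h2
    rw [h4, inv_inv]

theorem hyp_le_autK [Finite S] [Fact p.Prime] (hS : IsPGroup p S) (hF : F.IsSaturated p)
    (hT : F.StronglyClosed T) :
    F.hyperfocalSubgroup p ≤ autK S T (StronglyClosed.le_normalizer hT)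
      ((pResidual p (F.autGroup T)).map (F.autGroup T).subtype ⊔ Inn T) := by
  have hTS := hT.1
  have hn := StronglyClosed.le_normalizer hT
  set B := (pResidual p (F.autGroup T)).map (F.autGroup T).subtype ⊔ Inn T with hB
  have hTK : T ≤ autK S T hn B := by
    intro t ht
    obtain ⟨α, hα⟩ := exists_aut_of_normalizer (P := T) (Subgroup.le_normalizer ht)
    exact ⟨hTS ht, α, (le_sup_right : Inn T ≤ B) (mem_Inn_iff.2 ⟨t, ht, hα⟩), hα⟩
  rw [hyp_le_iff]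
  intro P hP β hβ
  refine pRes_induction (C := fun β : F.autGroup P => ∀ x ∈ P, x⁻¹ * aev β.1 x ∈ autK S T hn B) ?_ ?_ ?_ β hβ
  · intro x hx
    have : aev ((1 : F.autGroup P) : MulAut P) x = x := aev_one hx
    rw [this, inv_mul_cancel]
    exact Subgroup.one_mem _
  · intro β₁ β₂ h1 h2 x hx
    have e1 : aev ((β₁ * β₂ : F.autGroup P) : MulAut P) x = aev β₁.1 (aev β₂.1 x) := aev_mul _ _ hx
    have hx2 : aev β₂.1 x ∈ P := aev_mem_self _ hx
    have e2 : x⁻¹ * aev β₁.1 (aev β₂.1 x) =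
        (x⁻¹ * aev β₂.1 x) * ((aev β₂.1 x)⁻¹ * aev β₁.1 (aev β₂.1 x)) := by group
    rw [e1, e2]
    exact Subgroup.mul_mem _ (h2 x hx) (h1 _ hx2)
  · intro β hβ x hx
    have hNS : P ⊔ T ≤ S := sup_le hP hTS
    have hfinN : Finite (P ⊔ T : Subgroup Ω) := finite_of_le hNS
    have hPN : P ≤ P ⊔ T := le_sup_left
    have hTN : T ≤ P ⊔ T := le_sup_right
    obtain ⟨f', hf', h1⟩ := exists_ext_mod hS hF hT P _ ((mem_autGroup_iff hP).1 β.2)
    have him : im f' (P ⊔ T) = P ⊔ T := by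
      apply Subgroup.eq_of_le_of_card_ge
      · rw [im_le_iff]
        refine hf'.sup_mem (fun z hz => ?_) (fun z hz => hTN (StronglyClosed.map_mem hT hf' (hTN hz) hz))
        have e : f' z = aev β.1 z * ((aev β.1 z)⁻¹ * f' z) := by group
        rw [e]
        exact Subgroup.mul_mem_sup (aev_mem_self _ hz) (h1 z hz)
      · rw [hf'.card_im]
    obtain ⟨γ, hγ, hγ2⟩ := hf'.exists_aut him
    have hγm := (mem_autGroup_iff hNS).1 hγ
    -- powers
    have hpow : ∀ j : ℕ, ∀ z ∈ P, (aev (β.1 ^ j) z)⁻¹ * aev (γ ^ j) z ∈ T := by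
      intro j
      induction j with
      | zero =>
        intro z hz
        rw [pow_zero, pow_zero, aev_one hz, aev_one (hPN hz), inv_mul_cancel]
        exact T.one_mem
      | succ j ih =>
        intro z hz
        have hbz : aev (β.1 ^ j) z ∈ P := aev_mem_self _ hz
        have hgz : aev (γ ^ j) z ∈ P ⊔ T := aev_mem_self _ (hPN hz)
        rw [pow_succ', pow_succ', aev_mul _ _ hz, aev_mul _ _ (hPN hz)]
        have e : aev (γ ^ j) z = aev (β.1 ^ j) z * ((aev (β.1 ^ j) z)⁻¹ * aev (γ ^ j) z) := by group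
        rw [e, hγm.map_mul (hPN hbz) (hTN (ih z hz)), ← mul_assoc]
        refine T.mul_mem ?_ (StronglyClosed.map_mem hT hγm (hTN (ih z hz)) (ih z hz))
        rw [hγ2 _ (hPN hbz)]
        exact h1 _ hbz
    have hfinX : Finite (F.autGroup (P ⊔ T)) := finite_autGroup hNS
    obtain ⟨k, hk⟩ := pow_mem_pRes (p := p) (⟨γ, hγ⟩ : F.autGroup (P ⊔ T))
    have hcop : Nat.Coprime (p ^ k) (orderOf β.1) := by
      rw [Subgroup.orderOf_coe]
      exact (Nat.Coprime.pow_right k hβ).symm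
    obtain ⟨u, hu⟩ := exists_pow_eq_self_of_coprime hcop
    obtain ⟨δ, hδ, hδ2⟩ := exists_res_pRes hT hTN hNS _ (Subgroup.pow_mem _ hk u)
    have hγ₁ : (((⟨γ, hγ⟩ : F.autGroup (P ⊔ T)) ^ p ^ k) ^ u).1 = γ ^ (p ^ k * u) := by
      rw [← pow_mul]; rfl
    rw [hγ₁] at hδ2
    set γ₁ := γ ^ (p ^ k * u) with hγ₁def
    have hγ₁A : γ₁ ∈ F.autGroup (P ⊔ T) := Subgroup.pow_mem _ hγ _
    have hγ₁m := (mem_autGroup_iff hNS).1 hγ₁A
    have hmod : (aev β.1 x)⁻¹ * aev γ₁ x ∈ T := by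
      have := hpow (p ^ k * u) x hx
      rwa [pow_mul, hu] at this
    have hγ₁x : aev γ₁ x ∈ S := hγ₁m.mem_S (hPN hx)
    -- `x⁻¹ γ₁(x)` lies in `autK`
    have hmain : x⁻¹ * aev γ₁ x ∈ autK S T hn B := by
      obtain ⟨c, hc⟩ := exists_aut_of_normalizer (hn (hP hx))
      have hcA : c ∈ F.autGroup T := autInducedBy_le_autGroup hTS (mem_autInducedBy_iff.2 ⟨x, hP hx, hc⟩)
      have hnorm := pRes_conj_mem hδ (⟨c, hcA⟩ : F.autGroup T)⁻¹
      have hmem : (⟨c, hcA⟩ : F.autGroup T)⁻¹ * δ * (⟨c, hcA⟩ : F.autGroup T)⁻¹⁻¹ * δ⁻¹ ∈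
          pResidual p (F.autGroup T) := Subgroup.mul_mem _ hnorm (Subgroup.inv_mem _ hδ)
      refine ⟨S.mul_mem (S.inv_mem (hP hx)) hγ₁x, c⁻¹ * δ.1 * c * δ.1⁻¹,
        (le_sup_left : _ ≤ B) ⟨_, hmem, by simp⟩, fun t ht => ?_⟩
      have ht1 : aev δ.1⁻¹ t ∈ T := aev_mem_self _ ht
      have ht2 : aev c (aev δ.1⁻¹ t) ∈ T := aev_mem_self _ ht1
      have ht3 : aev δ.1 (aev c (aev δ.1⁻¹ t)) ∈ T := aev_mem_self _ ht2
      rw [aev_mul _ _ ht, aev_mul _ _ ht1, aev_mul _ _ ht2]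
      have e1 : aev δ.1 (aev c (aev δ.1⁻¹ t)) = aev γ₁ x * t * (aev γ₁ x)⁻¹ := by
        rw [hc _ ht1, hδ2 _ (conj_mem_of_normalizer (hn (hP hx)) ht1),
          hγ₁m.map_conj (hPN hx) (hTN ht1), ← hδ2 _ ht1, aev_apply_inv δ.1 ht]
      rw [e1]
      have ht4 : aev γ₁ x * t * (aev γ₁ x)⁻¹ ∈ T := e1 ▸ ht3
      have h5 : x⁻¹ * (aev γ₁ x * t * (aev γ₁ x)⁻¹) * x ∈ T := conj_inv_mem_of_normalizer (hn (hP hx)) ht4
      have h6 := hc _ h5
      have e2 : x * (x⁻¹ * (aev γ₁ x * t * (aev γ₁ x)⁻¹) * x) * x⁻¹ = aev γ₁ x * t * (aev γ₁ x)⁻¹ := by group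
      rw [e2] at h6
      rw [← h6, aev_inv_apply c h5]
      group
    have e : x⁻¹ * aev β.1 x = (x⁻¹ * aev γ₁ x) * ((aev β.1 x)⁻¹ * aev γ₁ x)⁻¹ := by group
    rw [e]
    exact Subgroup.mul_mem _ hmain (Subgroup.inv_mem _ (hTK hmod))

end Cfsg.Agent.Lib.Helper26
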