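import Cfsg.Agent.Lib.Helper26.GrpTransfer
import Cfsg.Agent.Lib.Helper26.FusIdx
import Cfsg.Agent.Lib.Helper26.FusGroupFactor
import Cfsg.Agent.Lib.Helper26.FusSolv

set_option autoImplicit false

/-! The hyperfocal subgroup theorem, uniqueness of saturated subsystems of `p`-power index. -/

namespace Cfsg.Agent.Lib.Helper26

open Cfsg Cfsg.FusionSystem
open scoped commutatorElement

section general

variable {Ω : Type*} [Group Ω] {S T : Subgroup Ω}
variable {P Q R N K U V W : Subgroup Ω} {f g : Ω → Ω} {F : FusionSystem S} {E : FusionSystem T} {p : ℕ}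

theorem eq_top_of_sup_commutator {P : Type*} [Group P] [Finite P] [Fact p.Prime] (hP : IsPGroup p P)
    (H : Subgroup P) [H.Normal] (h : H ⊔ commutator P = ⊤) : H = ⊤ := by
  by_contra hne
  have hnt : Nontrivial (P ⧸ H) := QuotientGroup.nontrivial_iff.2 hne
  have hnil : Group.IsNilpotent P := hP.isNilpotent
  have hsol : Group.IsSolvable (P ⧸ H) := inferInstance
  have h1 := Group.IsSolvable.commutator_lt_top_of_nontrivial (P ⧸ H)
  apply h1.ne
  have h2 : (H ⊔ commutator P).map (QuotientGroup.mk' H) = ⊤ := by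
    rw [h, Subgroup.map_top_of_surjective _ (QuotientGroup.mk'_surjective H)]
  rw [Subgroup.map_sup, QuotientGroup.map_mk'_self, bot_sup_eq, commutator_def, Subgroup.map_commutator,
    Subgroup.map_top_of_surjective _ (QuotientGroup.mk'_surjective H)] at h2
  rw [commutator_def]
  exact h2

theorem hyp_eq_of_foc_eq [Finite S] [Fact p.Prime] (hS : IsPGroup p S) (hF : F.IsSaturated p)
    (h : F.focalSubgroup = S) : F.hyperfocalSubgroup p = S := by
  have hHs := hyp_stronglyClosed hS hF
  have hn := StronglyClosed.normal_subgroupOf hHs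
  have h1 : (F.hyperfocalSubgroup p).subgroupOf S = ⊤ := by
    apply eq_top_of_sup_commutator hS
    apply Subgroup.map_injective S.subtype_injective
    rw [Subgroup.map_sup, Subgroup.map_subgroupOf_eq_of_le hHs.1, Subgroup.map_subtype_commutator,
      ← foc_eq hS hF, h, ← MonoidHom.range_eq_map, Subgroup.range_subtype]
  exact le_antisymm hHs.1 (Subgroup.subgroupOf_eq_top.1 h1)

theorem autGroup_mono (hEF : ∀ P f, Map E P f → Map F P f) (hP : P ≤ T) : E.autGroup P ≤ F.autGroup P := by
  intro α hα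
  have h1 := (mem_autGroup_iff hP).1 hα
  exact (mem_autGroup_iff (hEF _ _ h1).le).2 (hEF _ _ h1)

theorem pRes_autGroup_mono {A B : Subgroup (MulAut P)} (hAB : A ≤ B) :
    ∀ β ∈ pResidual p A, ∃ h : β.1 ∈ B, (⟨β.1, h⟩ : B) ∈ pResidual p B := by
  apply pRes_induction
  · exact ⟨B.one_mem, Subgroup.one_mem _⟩
  · rintro x y ⟨hx, hx'⟩ ⟨hy, hy'⟩
    exact ⟨B.mul_mem hx hy, Subgroup.mul_mem _ hx' hy'⟩
  · intro x hx
    refine ⟨hAB x.2, mem_pRes_of_coprime ?_⟩
    rw [← Subgroup.orderOf_coe] at hx ⊢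
    exact hx

theorem hyp_mono (hEF : ∀ P f, Map E P f → Map F P f) : E.hyperfocalSubgroup p ≤ F.hyperfocalSubgroup p := by
  have hTS : T ≤ S := (hEF T id (Map.refl le_rfl)).le
  rw [hyp_le_iff]
  intro P hP β hβ x hx
  obtain ⟨h, h'⟩ := pRes_autGroup_mono (autGroup_mono hEF hP) β hβ
  exact mem_hyp (hP.trans hTS) h' hx

/-- two saturated subsystems of `p`-power index over the same subgroup coincide -/
theorem map_of_pPowerIndex [Finite S] [Fact p.Prime] (hS : IsPGroup p S) {E₁ E₂ : FusionSystem T}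
    (h₁ : E₁.IsSaturated p) (h₁F : E₁.IsSubsystemOf F) (h₂ : E₂.HasPPowerIndexIn F p) :
    ∀ P f, Map E₁ P f → Map E₂ P f := by
  have hTS : T ≤ S := IsSubsystemOf.le h₁F
  have hfT : Finite T := finite_of_le hTS
  have hTp : IsPGroup p T := hS.to_le hTS
  have hEF := isSubsystemOf_iff.1 h₁F
  refine alperin_induction hTp h₁ (fun P f => Map E₂ P f) (fun h hfg => h.congr hfg)
    (fun hP ha => Map.conj hP ha) (fun _ _ h h' hPQ => h.comp h' hPQ) (fun _ h => h.symm) ?_
  intro P hP α hα
  have hPT : P ≤ T := le_S_of_top_or_essential hP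
  have hfa := sat_fa_of_fn hTp h₁ (isFullyNormalized_of_top_or_essential hP)
  obtain ⟨β, hβ, a, ha, haN, h⟩ := exists_decomp_aut hfa hα
  obtain ⟨hb, hb'⟩ := pRes_autGroup_mono (autGroup_mono hEF hPT) β hβ
  have h3 : β.1 ∈ E₂.autGroup P := h₂.2.2 P hPT ⟨_, hb', rfl⟩
  have h4 : Map E₂ P (aev β.1) := (mem_autGroup_iff hPT).1 h3
  have h5 : Map E₂ P (cj a) := Map.conj hPT ha
  exact (h5.comp h4 (fun x hx => conj_mem_of_normalizer haN hx)).congr fun x hx => (h x hx).symm

end general

section group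

variable {G : Type*} [Group G] {p : ℕ} {H T P : Subgroup G}

/-- `O^p(H)` inside the ambient group -/
def pResOf' (p : ℕ) (H : Subgroup G) : Subgroup G :=
  Subgroup.closure {x | x ∈ H ∧ Nat.Coprime (orderOf x) p}

theorem pResOf'_le (p : ℕ) (H : Subgroup G) : pResOf' p H ≤ H := by
  rw [pResOf', Subgroup.closure_le]
  exact fun x hx => hx.1

theorem pResOf'_top : pResOf' p (⊤ : Subgroup G) = pResidual p G := by
  simp [pResOf', pResidual]

theorem inf_pResOf_le_hyp [Fact p.Prime] : ∀ (n : ℕ) (H T : Subgroup G) [Finite H] (hT : IsSylowIn p T H),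
    Nat.card H = n → T ⊓ pResOf' p H ≤ (fusionSystemOfSubgroup H T hT.le).hyperfocalSubgroup p := by
  intro n
  induction n using Nat.strong_induction_on with
  | _ n ih =>
    intro H T _ hT hn
    have hfT : Finite T := finite_of_le hT.le
    have hsat := isSaturated_sub hT
    by_cases hfoc : (fusionSystemOfSubgroup H T hT.le).focalSubgroup = T
    · rw [hyp_eq_of_foc_eq hT.isPGroup hsat hfoc]
      exact inf_le_left
    have hle : (fusionSystemOfSubgroup H T hT.le).focalSubgroup ≤ T := by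
      rw [foc_le_iff]
      intro R f hf x hx
      exact T.mul_mem (T.inv_mem (hf.le hx)) (hf.mem_S hx)
    obtain ⟨M, hMH, hMn, hMne, hM⟩ := exists_normal_of_focal_rel hT (lt_of_le_of_ne hle hfoc) (by
      intro x hx g hg hgx
      have hm : Map (fusionSystemOfSubgroup H T hT.le) (Subgroup.zpowers x) (cj g⁻¹) := by
        refine map_sub_cj ((Subgroup.zpowers_le).2 hx) (H.inv_mem hg) ?_
        rw [cjs_le_iff]
        intro y hy
        obtain ⟨k, rfl⟩ := Subgroup.mem_zpowers_iff.1 hy
        rw [← conj_zpow]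
        apply Subgroup.zpow_mem
        simpa using hgx
      have := mem_foc hm (Subgroup.mem_zpowers x)
      simpa [cj] using this)
    have hfM : Finite M := finite_of_le hMH
    have hlt : Nat.card M < Nat.card H := card_lt_of_lt (lt_of_le_of_ne hMH hMne)
    have hT' : IsSylowIn p (T ⊓ M) M := hT.inf_normal hMH hMn
    have h1 := ih (Nat.card M) (hn ▸ hlt) M (T ⊓ M) hT' rfl
    have h2 : pResOf' p H = pResOf' p M := by
      apply le_antisymm
      · exact Subgroup.closure_mono fun x hx => ⟨hM x hx.1 hx.2, hx.2⟩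
      · exact Subgroup.closure_mono fun x hx => ⟨hMH hx.1, hx.2⟩
    have h3 : (fusionSystemOfSubgroup M (T ⊓ M) hT'.le).hyperfocalSubgroup p ≤
        (fusionSystemOfSubgroup H T hT.le).hyperfocalSubgroup p := by
      apply hyp_mono
      intro P f hf
      obtain ⟨h1, k, hk, h⟩ := map_sub_iff.1 hf
      exact map_sub_iff.2 ⟨h1.trans inf_le_left, k, hMH hk, fun x hx => ⟨(h x hx).1, (h x hx).2.1⟩⟩
    refine le_trans ?_ (h1.trans h3)
    rw [h2]
    exact le_inf (le_inf inf_le_left (inf_le_right.trans (pResOf'_le p M))) inf_le_right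

/-- every element of `O^p(Aut_G(P))` is induced by an element of `O^p(G)` -/
theorem pRes_autInducedBy [Finite G] [Fact p.Prime] (P : Subgroup G) :
    ∀ β ∈ pResidual p (autInducedBy ⊤ P), β.1 ∈ autInducedBy (pResidual p G) P := by
  apply pRes_induction
  · exact Subgroup.one_mem _
  · intro x y hx hy
    exact Subgroup.mul_mem _ hx hy
  · intro β hβ
    obtain ⟨g, -, hg⟩ := mem_autInducedBy_iff.1 β.2
    obtain ⟨k, hk⟩ := pow_mem_pRes (p := p) g
    rw [← Subgroup.orderOf_coe] at hβ
    obtain ⟨m, hm⟩ := exists_pow_eq_self_of_coprime (x := β.1) (n := p ^ k) (Nat.Coprime.pow_left k hβ.symm)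
    rw [← hm]
    apply Subgroup.pow_mem
    exact mem_autInducedBy_iff.2 ⟨g ^ p ^ k, hk, aev_pow_conj hg _⟩

/-- S5093 -/
theorem hyp_group [Finite G] [Fact p.Prime] (S : Sylow p G) :
    (groupFusionSystem (S : Subgroup G)).hyperfocalSubgroup p = (S : Subgroup G) ⊓ pResidual p G := by
  apply le_antisymm
  · refine le_inf (hyp_le _ _) ?_
    rw [hyp_le_iff]
    intro P hP β hβ x hx
    have e : (groupFusionSystem (S : Subgroup G)).autGroup P = autInducedBy ⊤ P := by
      rw [groupFusionSystem_eq]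
      exact autGroup_sub hP
    obtain ⟨h1, h2⟩ := pRes_autGroup_mono e.le β hβ
    obtain ⟨g, hg, hgx⟩ := mem_autInducedBy_iff.1 (pRes_autInducedBy P _ h2)
    rw [hgx x hx]
    have e2 : x⁻¹ * (g * x * g⁻¹) = (x⁻¹ * g * x⁻¹⁻¹) * g⁻¹ := by group
    rw [e2]
    exact Subgroup.mul_mem _ (pRes_conj_mem hg _) (Subgroup.inv_mem _ hg)
  · have := inf_pResOf_le_hyp (p := p) _ ⊤ (S : Subgroup G) (Sylow.isSylowIn_top S) rfl
    rw [pResOf'_top] at this
    rw [groupFusionSystem_eq]
    exact this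

theorem pRes_sub_hasPPowerIndex [Finite G] [Fact p.Prime] (S : Sylow p G) :
    (fusionSystemOfSubgroup (pResidual p G) ((S : Subgroup G) ⊓ pResidual p G) inf_le_right).HasPPowerIndexIn
      (groupFusionSystem (S : Subgroup G)) p := by
  refine ⟨?_, (hyp_group S).le, ?_⟩
  · rw [isSubsystemOf_iff]
    intro P f hf
    obtain ⟨h1, k, hk, h⟩ := map_sub_iff.1 hf
    exact map_group_iff.2 ⟨h1.trans inf_le_left, k, fun x hx => ⟨(h x hx).1, (h x hx).2.1⟩⟩
  · rintro P hP _ ⟨β, hβ, rfl⟩
    rw [autGroup_sub hP]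
    have e : (groupFusionSystem (S : Subgroup G)).autGroup P = autInducedBy ⊤ P := by
      rw [groupFusionSystem_eq]
      exact autGroup_sub (hP.trans inf_le_left)
    obtain ⟨h1, h2⟩ := pRes_autGroup_mono e.le β hβ
    exact pRes_autInducedBy P _ h2

/-- S5139 -/
theorem pResidual_group [Finite G] [Fact p.Prime] (S : Sylow p G) (T' : Subgroup G)
    (e : T' = (S : Subgroup G) ⊓ pResidual p G) (E : FusionSystem T') (hEs : E.IsSaturated p)
    (hEi : E.HasPPowerIndexIn (groupFusionSystem (S : Subgroup G)) p) :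
    ∀ P, E.Hom P = (fusionSystemOfSubgroup (pResidual p G) ((S : Subgroup G) ⊓ pResidual p G) inf_le_right).Hom P := by
  subst e
  have hK := pRes_sub_hasPPowerIndex (p := p) S
  have hsyl : IsSylowIn p ((S : Subgroup G) ⊓ pResidual p G) (pResidual p G) :=
    (Sylow.isSylowIn_top S).inf_normal le_top (by rw [Subgroup.normalizer_eq_top])
  have hKs := isSaturated_sub hsyl
  intro P
  ext φ
  rw [mem_hom_iff_map, mem_hom_iff_map]
  exact ⟨map_of_pPowerIndex S.2 hEs hEi.1 hK P _, map_of_pPowerIndex S.2 hKs hK.1 hEi P _⟩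

end group

end Cfsg.Agent.Lib.Helper26
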