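import Cfsg.Agent.Lib.Helper26.FusConstr

set_option autoImplicit false

/-! Solvable fusion systems: normal subsystems and factor systems. -/

namespace Cfsg.Agent.Lib.Helper26

open Cfsg Cfsg.FusionSystem
open scoped commutatorElement

variable {Ω : Type*} [Group Ω] {S T : Subgroup Ω}
variable {P Q R N K U V W A X Z : Subgroup Ω} {f g : Ω → Ω} {F : FusionSystem S} {E : FusionSystem T} {p : ℕ}

/-- the canonical descending "derived series" of strongly closed subgroups -/
def dser (E : FusionSystem T) : ℕ → Subgroup Ω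
  | 0 => T
  | (j + 1) => sInf {W | E.StronglyClosed W ∧ ⁅dser E j, dser E j⁆ ≤ W}

theorem dser_stronglyClosed (E : FusionSystem T) : ∀ j, E.StronglyClosed (dser E j)
  | 0 => stronglyClosed_S
  | (j + 1) => by
    have ih := dser_stronglyClosed E j
    have hmem : dser E j ∈ {W | E.StronglyClosed W ∧ ⁅dser E j, dser E j⁆ ≤ W} :=
      ⟨ih, Subgroup.commutator_le_self _⟩
    rw [stronglyClosed_iff]
    refine ⟨(sInf_le hmem).trans ih.1, fun R hR f hf x hx => ?_⟩
    show f x ∈ sInf {W | E.StronglyClosed W ∧ ⁅dser E j, dser E j⁆ ≤ W}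
    rw [Subgroup.mem_sInf]
    intro W hW
    exact (stronglyClosed_iff.1 hW.1).2 R (hR.trans (sInf_le hW)) f hf x hx

theorem dser_comm (E : FusionSystem T) (j : ℕ) : ⁅dser E j, dser E j⁆ ≤ dser E (j + 1) :=
  le_sInf fun _ hW => hW.2

theorem dser_le_of_chain {n : ℕ} {C : ℕ → Subgroup Ω} (hC : SolvChain E ⊥ n C) :
    ∀ j ≤ n, dser E j ≤ C (n - j) := by
  obtain ⟨h0, hn, hmono, hsc, hcomm⟩ := hC
  intro j
  induction j with
  | zero => intro _; simp [dser, hn]
  | succ j ih =>
    intro hj
    have h1 := ih (by omega)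
    refine sInf_le ⟨hsc _ (by omega), ?_⟩
    have h2 := hcomm (n - (j + 1)) (by omega)
    have e : n - (j + 1) + 1 = n - j := by omega
    rw [e] at h2
    exact (Subgroup.commutator_mono h1 h1).trans h2

theorem dser_invariant (hinv : E.IsInvariantIn F) :
    ∀ j, ∀ α ∈ F.autGroup T, ∀ x ∈ dser E j, aev α x ∈ dser E j := by
  obtain ⟨hEF, hT, hI, hFr⟩ := isInvariantIn_iff.1 hinv
  have hTS := hT.1
  intro j
  induction j with
  | zero => intro α _ x hx; exact aev_mem_self α hx
  | succ j ih =>
    intro α hα x hx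
    have hxT : x ∈ T := (dser_stronglyClosed E (j + 1)).1 hx
    show aev α x ∈ sInf {W | E.StronglyClosed W ∧ ⁅dser E j, dser E j⁆ ≤ W}
    rw [Subgroup.mem_sInf]
    intro W hW
    have hαm : Map F T (aev α) := (mem_autGroup_iff hTS).1 hα
    have hα'm : Map F T (aev α⁻¹) := (mem_autGroup_iff hTS).1 (Subgroup.inv_mem _ hα)
    have hWT : W ≤ T := hW.1.1
    -- `α⁻¹ W`
    have hmemW : ∀ y ∈ T, y ∈ im (aev α⁻¹) W ↔ aev α y ∈ W := by
      intro y hy
      rw [mem_im (hα'm.restrict hWT)]
      constructor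
      · rintro ⟨w, hw, rfl⟩
        rwa [aev_apply_inv α (hWT hw)]
      · intro h
        exact ⟨_, h, aev_inv_apply α hy⟩
    have hle : im (aev α⁻¹) W ≤ T := by
      rw [im_le_iff]
      exact fun w hw => aev_mem_self _ (hWT hw)
    have hmem : im (aev α⁻¹) W ∈ {W | E.StronglyClosed W ∧ ⁅dser E j, dser E j⁆ ≤ W} := by
      constructor
      · rw [stronglyClosed_iff]
        refine ⟨hle, fun R hR f hf y hy => ?_⟩
        obtain ⟨χ, hχ, hχα⟩ := hI R f hf α hα
        rw [hmemW _ (hf.mem_S hy), ← hχα y hy]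
        refine (stronglyClosed_iff.1 hW.1).2 _ ?_ χ hχ _ (mem_im_of_mem hy)
        rw [im_le_iff]
        intro z hz
        exact (hmemW z (hle (hR hz))).1 (hR hz)
      · rw [Subgroup.commutator_le]
        intro a ha b hb
        have haT := (dser_stronglyClosed E j).1 ha
        have hbT := (dser_stronglyClosed E j).1 hb
        have habT : ⁅a, b⁆ ∈ T := by
          rw [commutatorElement_def]
          exact T.mul_mem (T.mul_mem (T.mul_mem haT hbT) (T.inv_mem haT)) (T.inv_mem hbT)
        rw [hmemW _ habT]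
        apply hW.2
        have e : aev α ⁅a, b⁆ = ⁅aev α a, aev α b⁆ := by
          rw [commutatorElement_def, commutatorElement_def,
            aev_map_mul α (T.mul_mem (T.mul_mem haT hbT) (T.inv_mem haT)) (T.inv_mem hbT),
            aev_map_mul α (T.mul_mem haT hbT) (T.inv_mem haT), aev_map_mul α haT hbT,
            aev_map_inv α haT, aev_map_inv α hbT]
        rw [e]
        exact Subgroup.commutator_mem_commutator (ih α hα a ha) (ih α hα b hb)
    have h1 : x ∈ im (aev α⁻¹) W := (Subgroup.mem_sInf.1 hx) _ hmem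
    exact (hmemW x hxT).1 h1

theorem dser_stronglyClosed' (hinv : E.IsInvariantIn F) (j : ℕ) : F.StronglyClosed (dser E j) := by
  obtain ⟨hEF, hT, hI, hFr⟩ := isInvariantIn_iff.1 hinv
  have h1 := dser_stronglyClosed E j
  rw [stronglyClosed_iff]
  refine ⟨h1.1.trans hT.1, fun R hR f hf x hx => ?_⟩
  obtain ⟨α, hα, f₀, hf₀, h⟩ := hFr R (hR.trans h1.1) f hf
  rw [h x hx]
  exact dser_invariant hinv j α hα _ ((stronglyClosed_iff.1 h1).2 R hR f₀ hf₀ x hx)

section factor

variable {Ω' : Type*} [Group Ω'] {S' : Subgroup Ω'} {θ : S →* Ω'} {D : FusionSystem S'}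

theorem tv_comm (θ : S →* Ω') {a b : Ω} (ha : a ∈ S) (hb : b ∈ S) : tv θ ⁅a, b⁆ = ⁅tv θ a, tv θ b⁆ := by
  rw [commutatorElement_def, commutatorElement_def,
    tv_mul θ (S.mul_mem (S.mul_mem ha hb) (S.inv_mem ha)) (S.inv_mem hb),
    tv_mul θ (S.mul_mem ha hb) (S.inv_mem ha), tv_mul θ ha hb, tv_inv θ ha, tv_inv θ hb]

/-- S5159 -/
theorem solvable_iff_normal_factor [Finite S] [Fact p.Prime] (hS : IsPGroup p S) (hF : F.IsSaturated p)
    (hE : E.IsSaturated p) (hinv : E.IsInvariantIn F) (hD : F.IsFactorSystem T θ D) :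
    F.IsSolvableSystem ↔ (E.IsSolvableSystem ∧ D.IsSolvableSystem) := by
  obtain ⟨hEF, hT, hI, hFr⟩ := isInvariantIn_iff.1 hinv
  have hTS := hT.1
  have hfT : Finite T := finite_of_le hTS
  have hTp : IsPGroup p T := hS.to_le hTS
  have hDs : D.IsSaturated p := factor_isSaturated hS hF hT hD
  have hmor : F.IsMorphism D θ := (factor_isSurjectiveMorphism hS hF hT hD).1
  obtain ⟨d, hD'⟩ := isFactorSystem_iff.1 hD
  have hfS' : Finite S' := d.finite
  have hS'p : IsPGroup p S' := d.isPGroup hS
  constructor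
  · intro hsol
    constructor
    · obtain ⟨n, C, h0, hn, hmono, hsc, hcomm⟩ := (isSolvableSystem_iff_chain hS hF).1 hsol
      rw [isSolvableSystem_iff_chain hTp hE]
      refine ⟨n, fun i => C i ⊓ T, ?_, ?_, ?_, ?_, ?_⟩
      · simp [h0]
      · simp [hn, hTS]
      · exact fun i hi => inf_le_inf_right _ (hmono i hi)
      · exact fun i hi => StronglyClosed.of_sub hEF (stronglyClosed_inf (hsc i hi) hT) inf_le_right
      · intro i hi
        exact le_inf ((Subgroup.commutator_mono inf_le_left inf_le_left).trans (hcomm i hi))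
          ((Subgroup.commutator_mono inf_le_right inf_le_right).trans (Subgroup.commutator_le_self T))
    · rw [isSolvableSystem_iff hS hF] at hsol
      rw [isSolvableSystem_iff hS'p hDs]
      intro R' hR' hne
      have hRs := stronglyClosed_pre hmor hR'
      have hRne : preimageAlong θ R' ≠ S := by
        intro h
        apply hne
        rw [← d.image_pre hR'.1, h]
        apply le_antisymm d.image_le
        intro y hy
        obtain ⟨x, hx, rfl⟩ := d.exists_tv_eq hy
        exact tv_mem_imageAlong hx hx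
      obtain ⟨W, hW, hlt, hc⟩ := hsol _ hRs hRne
      have hTW : T ≤ W := d.le_pre.trans hlt.le
      refine ⟨imageAlong θ W, stronglyClosed_image d hD' hW hTW, ?_, ?_⟩
      · refine lt_of_le_of_ne ?_ ?_
        · conv_lhs => rw [← d.image_pre hR'.1]
          exact imageAlong_mono hlt.le
        · intro h
          apply hlt.ne
          rw [h, d.pre_image_of_le hW.1 hTW]
      · rw [Subgroup.commutator_le]
        intro a ha b hb
        obtain ⟨x, hx, hxS, rfl⟩ := mem_imageAlong.1 ha
        obtain ⟨y, hy, hyS, rfl⟩ := mem_imageAlong.1 hb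
        rw [← tv_comm θ hxS hyS]
        exact (mem_preimageAlong.1 (hc (Subgroup.commutator_mem_commutator hx hy))).2
  · rintro ⟨hEsol, hDsol⟩
    rw [isSolvableSystem_iff hS hF]
    rw [isSolvableSystem_iff hS'p hDs] at hDsol
    obtain ⟨n, C, hC⟩ := (isSolvableSystem_iff_chain hTp hE).1 hEsol
    intro R hR hne
    by_cases hTR : T ≤ R
    · have hR's := stronglyClosed_image d hD' hR hTR
      have hR'ne : imageAlong θ R ≠ S' := by
        intro h
        apply hne
        rw [← d.pre_image_of_le hR.1 hTR, h]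
        apply le_antisymm preimageAlong_le
        intro x hx
        exact mem_preimageAlong.2 ⟨hx, d.tv_mem_S' hx⟩
      obtain ⟨W', hW', hlt, hc⟩ := hDsol _ hR's hR'ne
      refine ⟨preimageAlong θ W', stronglyClosed_pre hmor hW', ?_, ?_⟩
      · refine lt_of_le_of_ne ?_ ?_
        · conv_lhs => rw [← d.pre_image_of_le hR.1 hTR]
          exact preimageAlong_mono hlt.le
        · intro h
          apply hlt.ne
          rw [h, d.image_pre hW'.1]
      · rw [Subgroup.commutator_le]
        intro a ha b hb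
        obtain ⟨haS, ha2⟩ := mem_preimageAlong.1 ha
        obtain ⟨hbS, hb2⟩ := mem_preimageAlong.1 hb
        rw [← d.pre_image_of_le hR.1 hTR]
        refine mem_preimageAlong.2 ⟨?_, ?_⟩
        · rw [commutatorElement_def]
          exact S.mul_mem (S.mul_mem (S.mul_mem haS hbS) (S.inv_mem haS)) (S.inv_mem hbS)
        · rw [tv_comm θ haS hbS]
          exact hc (Subgroup.commutator_mem_commutator ha2 hb2)
    · -- find `j` with `dser E j ≰ R`, `dser E (j+1) ≤ R`
      have hex : ∃ j, dser E j ≤ R := by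
        refine ⟨n, ?_⟩
        have := dser_le_of_chain hC n le_rfl
        rw [Nat.sub_self, hC.1] at this
        exact this.trans bot_le
      classical
      have hj := Nat.find_spec hex
      have hj0 : Nat.find hex ≠ 0 := by
        intro h0
        rw [h0] at hj
        exact hTR hj
      obtain ⟨j, hjs⟩ := Nat.exists_eq_succ_of_ne_zero hj0
      have hjn : ¬ dser E j ≤ R := Nat.find_min hex (by omega)
      rw [hjs] at hj
      have hUs := dser_stronglyClosed' hinv j
      refine ⟨R ⊔ dser E j, stronglyClosed_sup hS hF hR hUs, ?_, ?_⟩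
      · exact lt_of_le_of_ne le_sup_left (fun h => hjn (h ▸ le_sup_right))
      · exact comm_sup_le (fun s hs x hx => StronglyClosed.conj_mem hR hs hx) hUs.1 ((dser_comm E j).trans hj)

end factor

end Cfsg.Agent.Lib.Helper26
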