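import Cfsg.Agent.Lib.Helper26.FusSub
import Cfsg.Prelude.Def_FusionComponents
set_option autoImplicit false
namespace Cfsg.Agent.Lib.Helper26

open Cfsg Cfsg.FusionSystem

variable {Ω : Type*} [Group Ω] {S T : Subgroup Ω}
variable {P Q R N K U V W : Subgroup Ω} {f g : Ω → Ω} {F : FusionSystem S} {E : FusionSystem T} {p : ℕ}

theorem isFullyNormalized_of_sub [Finite S] [Fact p.Prime] (hS : IsPGroup p S) (hF : F.IsSaturated p)
    (hEF : E.IsSubsystemOf F) (hT : F.StronglyClosed T) (hPT : P ≤ T) (hP : F.IsFullyNormalized P) :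
    E.IsFullyNormalized P := by
  refine ⟨hPT, fun P' hP' => ?_⟩
  obtain ⟨f, hf, rfl⟩ := isConj_iff.1 hP'
  have hfF := (isSubsystemOf_iff.1 hEF) P f hf
  have hconj : F.IsConj (im f P) P := isConj_symm (isConj_iff.2 ⟨f, hfF, rfl⟩)
  obtain ⟨ψ, hψ, hψP, hψN⟩ := exists_map_normalizerIn hS (sat_fa_of_fn hS hF hP)
    (sat_rec_of_fc hS hF (sat_fc_of_fn hS hF hP)) hconj
  have hle : normalizerIn T (im f P) ≤ normalizerIn S (im f P) := normalizerIn_mono hT.1
  have hfin : Finite (normalizerIn T P) := finite_of_le (normalizerIn_le.trans hT.1)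
  apply (hψ.restrict hle).card_le
  intro x hx
  have h1 : ψ x ∈ normalizerIn S P := hψN (mem_im_of_mem (hle hx))
  exact ⟨StronglyClosed.map_mem hT hψ (hle hx) hx.1, h1.2⟩

theorem IsSubnormalIn.le (hE : E.IsSubnormalIn F p) : T ≤ S := by
  induction hE with
  | refl F p => exact le_rfl
  | step h1 h2 ih => exact ih.trans h2.1.2.2.2.1.1

theorem isFullyNormalized_of_subnormal (hE : E.IsSubnormalIn F p) :
    Fact p.Prime → Finite S → IsPGroup p S → F.IsSaturated p → ∀ P ≤ T, F.IsFullyNormalized P → E.IsFullyNormalized P := by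
  induction hE with
  | refl F p => intro _ _ _ _ P _ hP; exact hP
  | step h1 h2 ih =>
    intro hp hfin hS hF P hPT hP
    rename_i T U S E D F p
    obtain ⟨hDs, -, hDi, -⟩ := isNormalIn_iff.1 h2
    have hU := hDi.2.1
    have hfinU : Finite U := finite_of_le hU.1
    exact ih hp hfinU (hS.to_le hU.1) hDs P hPT
      (isFullyNormalized_of_sub hS hF hDi.1 hU (hPT.trans (IsSubnormalIn.le h1)) hP)

end Cfsg.Agent.Lib.Helper26
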