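import Cfsg.Agent.Lib.Helper26.FusReal

set_option autoImplicit false

/-! An automorphism of a group of characteristic `p` fixing a Sylow `p`-subgroup elementwise is conjugation by
an element of the centre of that Sylow subgroup. -/

namespace Cfsg.Agent.Lib.Helper26

open Cfsg

variable {G : Type*} [Group G] {p : ℕ}

/-- averaging: a "cocycle" `lam : G → Z` into an abelian normal `p`-subgroup, trivial on a Sylow subgroup,
is a coboundary -/
theorem cocycle_coboundary [Finite G] [Fact p.Prime] (T : Sylow p G) (Z : Subgroup G) [hZn : Z.Normal]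
    (hZp : IsPGroup p Z) (hZc : ∀ a ∈ Z, ∀ b ∈ Z, a * b = b * a) (lam : G → G) (hlam : ∀ g, lam g ∈ Z)
    (hco : ∀ g h, lam (g * h) = lam g * (g * lam h * g⁻¹)) (hT : ∀ t ∈ T, lam t = 1) :
    ∃ z ∈ Z, ∀ h, lam h = z * (h * z⁻¹ * h⁻¹) := by
  classical
  have hp : p.Prime := Fact.out
  let _ : CommGroup Z := { (inferInstance : Group Z) with
    mul_comm := fun a b => Subtype.ext (hZc a a.2 b b.2) }
  let _ : Fintype (G ⧸ (T : Subgroup G)) := Fintype.ofFinite _
  let lam' : G → Z := fun g => ⟨lam g, hlam g⟩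
  have hcoset : ∀ g, ∀ t ∈ T, lam (g * t) = lam g := by
    intro g t ht
    rw [hco, hT t ht]; group
  let w : Z := ∏ q : G ⧸ (T : Subgroup G), lam' q.out
  let cz : G → Z →* Z := fun h => (MulAut.conjNormal h : MulAut Z).toMonoidHom
  have hcz : ∀ h (a : Z), ((cz h a : Z) : G) = h * a * h⁻¹ := fun h a => rfl
  set m := (T : Subgroup G).index with hm
  have hcard : Fintype.card (G ⧸ (T : Subgroup G)) = m := by
    rw [hm, Subgroup.index, Nat.card_eq_fintype_card]
  have key : ∀ h, lam' h ^ m * cz h w = w := by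
    intro h
    have h1 : cz h w = ∏ q : G ⧸ (T : Subgroup G), cz h (lam' q.out) := map_prod (cz h) _ _
    have h2 : ∀ q : G ⧸ (T : Subgroup G), lam' h * cz h (lam' q.out) = lam' ((h • q).out) := by
      intro q
      apply Subtype.ext
      show lam h * (h * lam q.out * h⁻¹) = lam (h • q).out
      rw [← hco]
      have h3 : (QuotientGroup.mk ((h • q).out) : G ⧸ (T : Subgroup G)) = QuotientGroup.mk (h * q.out) := by
        rw [QuotientGroup.out_eq']
        conv_lhs => rw [← QuotientGroup.out_eq' q]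
        rfl
      have h4 := QuotientGroup.eq.1 h3
      have e : h * q.out = (h • q).out * (((h • q).out)⁻¹ * (h * q.out)) := by group
      rw [e, hcoset _ _ h4]
    have h5 : lam' h ^ m * cz h w = ∏ q : G ⧸ (T : Subgroup G), lam' h * cz h (lam' q.out) := by
      rw [Finset.prod_mul_distrib, Finset.prod_const, Finset.card_univ, hcard, h1]
    rw [h5, Finset.prod_congr rfl (fun q _ => h2 q)]
    exact Equiv.prod_comp (MulAction.toPerm h : Equiv.Perm (G ⧸ (T : Subgroup G))) (fun q => lam' q.out)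
  have hcop : (Nat.card Z).Coprime m := by
    obtain ⟨k, hk⟩ := IsPGroup.iff_card.1 hZp
    rw [hk]
    exact Nat.Coprime.pow_left k ((Nat.Prime.coprime_iff_not_dvd hp).2 T.not_dvd_index)
  obtain ⟨z, hz⟩ : ∃ z : Z, z ^ m = w := ⟨(powCoprime hcop).symm w, (powCoprime hcop).apply_symm_apply w⟩
  refine ⟨z, z.2, fun h => ?_⟩
  have h6 : (lam' h) ^ m = (z * (cz h z)⁻¹) ^ m := by
    rw [mul_pow, inv_pow, ← map_pow, hz, eq_mul_inv_iff_mul_eq]
    exact key h
  have h7 : lam' h = z * (cz h z)⁻¹ := (powCoprime hcop).injective h6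
  have h8 := congrArg Subtype.val h7
  have h9 : lam h = z * (h * z * h⁻¹)⁻¹ := h8
  rw [h9]; group

theorem aut_fix_sylow [Finite G] [Fact p.Prime] (T : Sylow p G)
    (hc : Subgroup.centralizer ((pCore p G : Subgroup G) : Set G) ≤ pCore p G) (ψ : G ≃* G)
    (hψ : ∀ x ∈ T, ψ x = x) : ∃ z ∈ T, (∀ x ∈ T, z * x = x * z) ∧ ∀ g, ψ g = z * g * z⁻¹ := by
  have hUn := pCore_normal' p G
  have hUT := pCore_le_sylow T
  set U := pCore p G with hU
  have hZn : (Subgroup.centralizer (U : Set G)).Normal := inferInstance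
  have hZT : Subgroup.centralizer (U : Set G) ≤ (T : Subgroup G) := hc.trans hUT
  have hl1 : ∀ g, ψ g * g⁻¹ ∈ Subgroup.centralizer (U : Set G) := by
    intro g
    rw [Subgroup.mem_centralizer_iff]
    intro u hu
    have hu' : g⁻¹ * u * g ∈ U := by
      have := hUn.conj_mem u hu g⁻¹
      rwa [inv_inv] at this
    have h1 : ψ (g * (g⁻¹ * u * g) * g⁻¹) = u := by
      have e : g * (g⁻¹ * u * g) * g⁻¹ = u := by group
      rw [e]; exact hψ u (hUT hu)
    rw [map_mul, map_mul, map_inv, hψ _ (hUT hu')] at h1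
    calc u * (ψ g * g⁻¹) = (ψ g * (g⁻¹ * u * g) * (ψ g)⁻¹) * (ψ g * g⁻¹) := by rw [h1]
      _ = ψ g * g⁻¹ * u := by group
  have hl2 : ∀ g h, ψ (g * h) * (g * h)⁻¹ = ψ g * g⁻¹ * (g * (ψ h * h⁻¹) * g⁻¹) := by
    intro g h
    simp only [map_mul]
    group
  have hl3 : ∀ t ∈ T, ψ t * t⁻¹ = 1 := by
    intro t ht
    simp only [hψ t ht, mul_inv_cancel]
  obtain ⟨z, hz, h⟩ := cocycle_coboundary T (Subgroup.centralizer (U : Set G)) (T.2.to_le hZT)
    (fun a ha b hb => (Subgroup.mem_centralizer_iff.1 ha b (hc hb)).symm) (fun g => ψ g * g⁻¹) hl1 hl2 hl3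
  have hψz : ∀ g, ψ g = z * g * z⁻¹ := by
    intro g
    have := h g
    calc ψ g = (ψ g * g⁻¹) * g := by group
      _ = (z * (g * z⁻¹ * g⁻¹)) * g := by rw [this]
      _ = z * g * z⁻¹ := by group
  refine ⟨z, hZT hz, fun x hx => ?_, hψz⟩
  have := hψz x
  rw [hψ x hx] at this
  calc z * x = (z * x * z⁻¹) * z := by group
    _ = x * z := by rw [← this]

end Cfsg.Agent.Lib.Helper26
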