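import Mathlib

set_option autoImplicit false

namespace Cfsg.Agent.Lib.Helper26

universe u

theorem pow_eq_one_of_ucs {e : ℕ} : ∀ (c : ℕ) (G : Type u) [Group G], Subgroup.upperCentralSeries G c = ⊤ →
    (∀ z ∈ Subgroup.center G, z ^ e = 1) → ∀ g : G, g ^ (e ^ c) = 1 := by
  intro c
  induction c with
  | zero =>
    intro G _ h _ g
    have : g ∈ Subgroup.upperCentralSeries G 0 := by rw [h]; trivial
    rw [Subgroup.upperCentralSeries_zero, Subgroup.mem_bot] at this
    rw [this, one_pow]
  | succ c ih =>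
    intro G _ h hz g
    have h1 : Subgroup.upperCentralSeries (G ⧸ Subgroup.center G) c = ⊤ := by
      apply Subgroup.comap_injective (f := QuotientGroup.mk' (Subgroup.center G)) Quot.mk_surjective
      rw [Subgroup.comap_upperCentralSeries_quotient_center, Subgroup.comap_top]
      exact h
    have h2 : ∀ z ∈ Subgroup.center (G ⧸ Subgroup.center G), z ^ e = 1 := by
      intro z hzc
      obtain ⟨x, rfl⟩ := QuotientGroup.mk_surjective z
      rw [← QuotientGroup.mk_pow, QuotientGroup.eq_one_iff, Subgroup.mem_center_iff]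
      intro s
      rw [Subgroup.mem_center_iff] at hzc
      have h3 := hzc (s : G ⧸ Subgroup.center G)
      have h4 : x⁻¹ * (s * x * s⁻¹) ∈ Subgroup.center G := by
        rw [← QuotientGroup.eq_one_iff]
        rw [QuotientGroup.mk_mul, QuotientGroup.mk_mul, QuotientGroup.mk_mul, QuotientGroup.mk_inv,
          QuotientGroup.mk_inv, h3]
        group
      set k := x⁻¹ * (s * x * s⁻¹) with hk
      have h5 : s * x * s⁻¹ = x * k := by rw [hk]; group
      have h6 : Commute x k := ((Subgroup.mem_center_iff.1 h4) x)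
      have h7 : s * x ^ e * s⁻¹ = x ^ e := by
        rw [← conj_pow, h5, h6.mul_pow, hz k h4, mul_one]
      calc s * x ^ e = s * x ^ e * s⁻¹ * s := by group
        _ = x ^ e * s := by rw [h7]
    have h3 := ih (G ⧸ Subgroup.center G) h1 h2 (g : G ⧸ Subgroup.center G)
    rw [← QuotientGroup.mk_pow, QuotientGroup.eq_one_iff] at h3
    rw [pow_succ, pow_mul]
    exact hz _ h3

theorem pow_eq_one_of_lcs {Ω : Type u} [Group Ω] {S : Subgroup Ω} {e c : ℕ} (hc : S.lowerCentralSeries c = ⊥)
    (hz : ∀ z ∈ S ⊓ Subgroup.centralizer (S : Set Ω), z ^ e = 1) : ∀ g : S, g ^ (e ^ c) = 1 := by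
  apply pow_eq_one_of_ucs c S
  · rw [← Subgroup.lowerCentralSeries_eq_bot_iff_upperCentralSeries_eq_top]
    rw [← Subgroup.top_subtype_lowerCentralSeries, Subgroup.map_eq_bot_iff_of_injective _ S.subtype_injective] at hc
    exact hc
  · intro z hzc
    apply Subtype.ext
    rw [Subgroup.mem_center_iff] at hzc
    apply hz
    refine ⟨z.2, ?_⟩
    show _ ∈ Subgroup.centralizer (S : Set Ω)
    rw [Subgroup.mem_centralizer_iff]
    intro s hs
    exact congrArg Subtype.val (hzc ⟨s, hs⟩)

end Cfsg.Agent.Lib.Helper26
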