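import Cfsg.Agent.Lib.Helper26.GrpStab
import Cfsg.Agent.Lib.Helper26.FusSat3

set_option autoImplicit false

/-! Two non-commuting "transvection groups" on a group of order `p²` produce the inversion. -/

namespace Cfsg.Agent.Lib.Helper26

open Cfsg

variable {V : Type*} [Group V] {p : ℕ}

theorem eq_top_of_two [Finite V] [hpp : Fact p.Prime] (hexp : ∀ v : V, v ^ p = 1)
    (hcard : Nat.card V ≤ p ^ 2) (H : Subgroup V) {a b : V} (ha : a ∈ H) (hb : b ∈ H) (ha1 : a ≠ 1)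
    (hb' : b ∉ Subgroup.zpowers a) : H = ⊤ := by
  have hV : IsPGroup p V := fun g => ⟨1, by simpa using hexp g⟩
  have h1 : Subgroup.zpowers a < H :=
    lt_of_le_of_ne (Subgroup.zpowers_le.2 ha) (fun h => hb' (h ▸ hb))
  have h2 : Nat.card (Subgroup.zpowers a) = p := by
    rw [Nat.card_zpowers]
    exact orderOf_eq_prime (hexp a) ha1
  have h3 := card_lt_of_lt h1
  rw [h2] at h3
  obtain ⟨j, hj⟩ := IsPGroup.iff_card.1 (hV.to_subgroup H)
  have hj2 : 2 ≤ j := by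
    by_contra hcon
    have : j ≤ 1 := by omega
    have h4 := Nat.pow_le_pow_right hpp.out.pos this
    rw [pow_one] at h4
    omega
  apply Subgroup.eq_top_of_le_card
  rw [hj]
  exact hcard.trans (Nat.pow_le_pow_right hpp.out.pos hj2)

theorem exists_pow_eq_of_card_le [Finite V] [hpp : Fact p.Prime] (hexp : ∀ v : V, v ^ p = 1)
    (Z : Subgroup V) (hZ : Nat.card Z ≤ p) {u w : V} (hu : u ∈ Z) (hu1 : u ≠ 1) (hw : w ∈ Z) :
    ∃ j : ℕ, u ^ j = w := by
  have h2 : Nat.card (Subgroup.zpowers u) = p := by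
    rw [Nat.card_zpowers]
    exact orderOf_eq_prime (hexp u) hu1
  have h3 : Subgroup.zpowers u = Z :=
    Subgroup.eq_of_le_of_card_ge (Subgroup.zpowers_le.2 hu) (by rw [h2]; exact hZ)
  rw [← h3, ← mem_powers_iff_mem_zpowers] at hw
  exact hw

theorem pow_apply_fixed {β : MulAut V} {x : V} (hx : β x = x) (n : ℕ) : (β ^ n) x = x := by
  induction n with
  | zero => simp
  | succ n ih => rw [pow_succ, MulAut.mul_apply, hx, ih]

theorem exists_inverting [Finite V] [hpp : Fact p.Prime] (hab : ∀ a b : V, a * b = b * a)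
    (hexp : ∀ v : V, v ^ p = 1) (hcard : Nat.card V ≤ p ^ 2) (Z : Subgroup V) (hZ : Nat.card Z ≤ p)
    (A : Subgroup (MulAut V)) {t α : MulAut V} (ht : t ∈ A) (hα : α ∈ A) (htZ : ∀ z ∈ Z, t z = z)
    (htV : ∀ v, v⁻¹ * t v ∈ Z) {e : V} (hte : t e = e) (hne : t (α e) ≠ α e) :
    ∃ z ∈ A, ∀ v, z v = v⁻¹ := by
  set e₂ := α e with he₂
  set e₁ := e₂⁻¹ * t e₂ with he₁
  have he₁Z : e₁ ∈ Z := htV e₂
  have he₁1 : e₁ ≠ 1 := by
    intro h
    apply hne
    have : e₂ * e₁ = e₂ * 1 := by rw [h]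
    rw [he₁, mul_inv_cancel_left, mul_one] at this
    exact this
  have he₂Z : e₂ ∉ Z := fun h => hne (htZ _ h)
  have he₂z : e₂ ∉ Subgroup.zpowers e₁ := fun h => he₂Z (Subgroup.zpowers_le.2 he₁Z h)
  -- fixed points as subgroups
  let Fix : MulAut V → Subgroup V := fun β =>
    { carrier := {v | β v = v}
      one_mem' := map_one β
      mul_mem' := fun {a b} ha hb => by
        show β (a * b) = a * b
        rw [map_mul, ha, hb]
      inv_mem' := fun {a} ha => by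
        show β a⁻¹ = a⁻¹
        rw [map_inv, ha] }
  have heZ : e ∈ Z := by
    by_contra hcon
    have h1 : e ∉ Subgroup.zpowers e₁ := fun h => hcon (Subgroup.zpowers_le.2 he₁Z h)
    have h2 : Fix t = ⊤ := eq_top_of_two hexp hcard (Fix t) (htZ _ he₁Z) hte he₁1 h1
    have h3 : e₂ ∈ Fix t := h2 ▸ Subgroup.mem_top _
    exact hne h3
  set s := α * t * α⁻¹ with hs
  have hsA : s ∈ A := A.mul_mem (A.mul_mem hα ht) (A.inv_mem hα)
  have hs₂ : s e₂ = e₂ := by
    rw [hs, MulAut.mul_apply, MulAut.mul_apply, he₂, MulAut.inv_apply_self, hte]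
  set y := α⁻¹ e₁ with hy
  set u := y⁻¹ * t y with hu
  have huZ : u ∈ Z := htV y
  have hs₁ : s e₁ = e₁ * α u := by
    rw [hs, MulAut.mul_apply, MulAut.mul_apply, ← hy, hu, map_mul, map_inv, hy, MulAut.apply_inv_self,
      mul_inv_cancel_left]
  have hu1 : u ≠ 1 := by
    intro h
    rw [h, map_one, mul_one] at hs₁
    have h2 : Fix s = ⊤ := eq_top_of_two hexp hcard (Fix s) hs₁ hs₂ he₁1 he₂z
    have h3 : α e₂ ∈ Fix s := h2 ▸ Subgroup.mem_top _
    have h4 : s (α e₂) = α e₂ := h3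
    rw [hs, MulAut.mul_apply, MulAut.mul_apply, MulAut.inv_apply_self] at h4
    exact hne (α.injective h4)
  obtain ⟨j, hj⟩ := exists_pow_eq_of_card_le hexp Z hZ huZ hu1 (Z.inv_mem heZ)
  have hsu : s (α u) = α u := by
    rw [hs, MulAut.mul_apply, MulAut.mul_apply, MulAut.inv_apply_self, htZ _ huZ]
  have hU₁ : (s ^ j) e₁ = e₁ * e₂⁻¹ := by
    rw [pow_apply_of_fixed hs₁ hsu j, ← map_pow, hj, map_inv]
  have hU₂ : (s ^ j) e₂ = e₂ := pow_apply_fixed hs₂ j
  have hT₁ : t e₁ = e₁ := htZ _ he₁Z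
  have hT₂ : t e₂ = e₂ * e₁ := by rw [he₁, mul_inv_cancel_left]
  set w := t * s ^ j * t with hw
  have hwA : w ∈ A := A.mul_mem (A.mul_mem ht (A.pow_mem hsA j)) ht
  have hw₁ : w e₁ = e₂⁻¹ := by
    rw [hw, MulAut.mul_apply, MulAut.mul_apply, hT₁, hU₁, map_mul, map_inv, hT₁, hT₂, mul_inv_rev,
      mul_inv_cancel_left]
  have hw₂ : w e₂ = e₁ := by
    rw [hw, MulAut.mul_apply, MulAut.mul_apply, hT₂, map_mul, hU₁, hU₂, hab e₁ e₂⁻¹, mul_inv_cancel_left, hT₁]
  refine ⟨w * w, A.mul_mem hwA hwA, ?_⟩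
  let H : Subgroup V :=
    { carrier := {v | (w * w) v = v⁻¹}
      one_mem' := by
        show (w * w) 1 = 1⁻¹
        rw [map_one, inv_one]
      mul_mem' := fun {a b} ha hb => by
        show (w * w) (a * b) = (a * b)⁻¹
        rw [map_mul, ha, hb, mul_inv_rev, hab]
      inv_mem' := fun {a} ha => by
        show (w * w) a⁻¹ = a⁻¹⁻¹
        rw [map_inv, ha] }
  have hH : H = ⊤ := by
    apply eq_top_of_two hexp hcard H (a := e₁) (b := e₂) _ _ he₁1 he₂z
    · show (w * w) e₁ = e₁⁻¹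
      rw [MulAut.mul_apply, hw₁, map_inv, hw₂]
    · show (w * w) e₂ = e₂⁻¹
      rw [MulAut.mul_apply, hw₂, hw₁]
  intro v
  have : v ∈ H := hH ▸ Subgroup.mem_top v
  exact this

end Cfsg.Agent.Lib.Helper26
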